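import Cfsg.Agent.J4F.EA

/-! Elementary abelian subgroups of order at least `2^10` of `2^11:M24` lie in `V` or are conjugate to `A0` (helper16). -/

set_option autoImplicit false
set_option maxRecDepth 100000
set_option exponentiation.threshold 100000

namespace Cfsg.Agent.J4F
open Cfsg.Agent.Comp Cfsg.Agent.Golay Cfsg.Agent.J4T Cfsg.Agent.J4T.C

theorem comm_of_sq {G : Type*} [Group G] {E : Subgroup G} (h : ∀ x ∈ E, x * x = 1) {x y : G} (hx : x ∈ E) (hy : y ∈ E) :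
    x * y = y * x := by
  have h1 := h _ (E.mul_mem hx hy)
  calc x * y = (x * y)⁻¹ := (inv_eq_of_mul_eq_one_right h1).symm
    _ = y * x := by rw [mul_inv_rev, inv_eq_of_mul_eq_one_right (h x hx), inv_eq_of_mul_eq_one_right (h y hy)]

theorem pgrp_of_sq {G : Type*} [Group G] {E : Subgroup G} (h : ∀ x ∈ E, x * x = 1) : IsPGroup 2 E :=
  fun x => ⟨1, Subtype.ext (by rw [pow_one, sq]; exact h x x.2)⟩

theorem card_split (E : Subgroup K) : Nat.card (E.map π) * Nat.card ↥(E ⊓ V) = Nat.card E := by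
  have h := card_ker_mul (π.comp E.subtype)
  rwa [MonoidHom.range_comp, Subgroup.range_subtype, ← MonoidHom.comap_ker, ker_π, Subgroup.comap_subtype,
    card_subgroupOf_eq] at h

theorem act_fix {c : ℕ} {x v : K} (hc : RM c (π x)) (hv : v ∈ V) (h : x * v = v * x) : act c (sy v) = sy v := by
  rw [← sy_conj hc hv, h, mul_inv_cancel_right]

def mkM (l : List ℕ) : ℕ := List.rec (motive := fun _ => ℕ) 0 (fun a _ ih => Nat.lor (Nat.shiftLeft 1 a) ih) l

theorem mkM_bit {l : List ℕ} {m : ℕ} : (mkM l).testBit m = true ↔ m ∈ l := by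
  induction l with
  | nil => simp [mkM]
  | cons a l ih =>
    show (1 <<< a ||| mkM l).testBit m = true ↔ _
    rw [Nat.testBit_or, Bool.or_eq_true, ih, Nat.one_shiftLeft, Nat.testBit_two_pow, decide_eq_true_iff,
      List.mem_cons, eq_comm]

def LW : List ℕ := [0, 36, 202, 238, 282, 318, 464, 500, 600, 636, 658, 694, 834, 870, 904, 940, 1105, 1141, 1179, 1215,
  1355, 1391, 1409, 1445, 1545, 1581, 1731, 1767, 1811, 1847, 2009, 2045, 2052, 2080, 2254, 2282, 2334, 2362, 2516, 2544,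
  2652, 2680, 2710, 2738, 2886, 2914, 2956, 2984, 3157, 3185, 3231, 3259, 3407, 3435, 3461, 3489, 3597, 3625, 3783, 3811,
  3863, 3891, 4061, 4089]

theorem FO_bit {m : ℕ} : FO.testBit m = true ↔ m ∈ LW := by rw [show FO = mkM LW by decide +kernel, mkM_bit]

theorem LI_mem {g : MG} (hg : g ∈ P2) (h2 : g * g = 1) (h1 : g ≠ 1) : ∃ e ∈ LI, CM (e >>> 8) g := by
  have h := LI_all
  rw [forceL_eq] at h
  obtain ⟨c, hc, h3⟩ := lists_P2.forall h hg
  simp only [force_eq, bor_eq, Bool.or_eq_true, nbeq, Bool.not_eq_true', nbeq_false, memL_iff, mapL_eq,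
    List.mem_map] at h3
  rcases h3 with h3 | h3 | ⟨e, he, rfl⟩
  · exact absurd (canCM.func hc (h3 ▸ grpCM.one)) h1
  · exact absurd (canCM.canon (grpCM.mul hc hc) (h2 ▸ grpCM.one)) h3
  · exact ⟨e, he, hc⟩

theorem ea_W {E : Subgroup K} (h2 : ∀ x ∈ E, x * x = 1) (hc : 2 ^ 10 ≤ Nat.card E) (hP : ∀ x ∈ E, π x ∈ P2)
    (hn : ¬ E ≤ V) (m : ℕ) : m ∈ LW ↔ ∃ v ∈ E, v ∈ V ∧ sy v = m := by
  classical
  have hi := LI_idx
  simp only [band_eq, Bool.and_eq_true, nodupL_iff, mapL_eq, allL_iff, nble, nblt] at hi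
  have inj := List.inj_on_of_nodup_map hi.1
  set S := (Finset.range 200).filter fun i => ∃ e ∈ LI, e &&& 255 = i ∧ ∃ x ∈ E, CM (e >>> 8) (π x)
  set W := (Finset.range 4296).filter fun i => ∃ v ∈ E, v ∈ V ∧ sy v + 200 = i
  have hS : Nat.card (E.map π) ≤ S.card + 1 := by
    have : (((E.map π : Set MG) \ {1}).toFinite.toFinset).card ≤ S.card := by
      refine Finset.card_le_card_of_forall_subsingleton (fun g i => ∃ e ∈ LI, e &&& 255 = i ∧ CM (e >>> 8) g)
        (fun g hg => ?_) fun i _ g hg g' hg' => ?_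
      · rw [Set.Finite.mem_toFinset] at hg
        obtain ⟨⟨x, hx, rfl⟩, h1⟩ := hg
        obtain ⟨e, he, h3⟩ := LI_mem (hP x hx) (by rw [← map_mul, h2 x hx, map_one]) h1
        exact ⟨_, Finset.mem_filter.2 ⟨Finset.mem_range.2 ((hi.2 e he).2.trans (by decide)), e, he, rfl, x, hx, h3⟩,
          e, he, rfl, h3⟩
      · obtain ⟨-, e, he, h3, h4⟩ := hg
        obtain ⟨-, f, hf, h5, h6⟩ := hg'
        obtain rfl := inj he hf (h3.trans h5.symm)
        exact canCM.func h4 h6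
    rw [← Set.ncard_eq_toFinset_card, Set.ncard_sdiff_singleton_of_mem (E.map π).one_mem] at this
    have e : (E.map π : Set MG).ncard = Nat.card (E.map π) := rfl
    omega
  have hW : Nat.card ↥(E ⊓ V) ≤ W.card := by
    have : (((E ⊓ V : Subgroup K) : Set K).toFinite.toFinset).card ≤ W.card := by
      refine Finset.card_le_card_of_injOn (fun v => sy v + 200) (fun v hv => ?_) fun v hv w hw e => ?_
      · rw [Finset.mem_coe, Set.Finite.mem_toFinset] at hv
        exact Finset.mem_filter.2 ⟨Finset.mem_range.2 (Nat.add_lt_add_right (sy_lt v) 200), v, hv.1, hv.2, rfl⟩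
      · rw [Finset.mem_coe, Set.Finite.mem_toFinset] at hv hw
        exact ext_K ((π_V hv.2).trans (π_V hw.2).symm) (Nat.add_right_cancel e)
    rwa [← Set.ncard_eq_toFinset_card] at this
  have key : ∀ l p, srch l = true → p ∈ l → p.1 ≤ S.card → p.2 ≤ W.card →
      ∀ m, (FO <<< 200).testBit m = true ↔ m ∈ W := fun l p h hp h3 h4 => by
    rw [srch, forceL_eq, band_eq, Bool.and_eq_true, beq_iff_eq, mapL_eq, mapL_eq, mapL_eq, List.map_map,
      List.map_inj_left] at h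
    refine go_spec h4 _ _ _ _ S (allL_iff.1 h.2 p hp) (fun i hi' => ?_) (fun i hi' => ?_) (fun i hi' => ?_) h3
    · obtain ⟨-, e, he, rfl, x, hx, h5⟩ := Finset.mem_filter.1 hi'
      refine ⟨_, List.mem_map_of_mem he, h.1 e he, fun j hj hlt => ?_, fun j hj => ?_⟩
      · obtain ⟨-, f, hf, rfl, y, hy, h6⟩ := Finset.mem_filter.1 hj
        exact mkT_cm hf hlt (cm7_of h5.1 h6.1 (by rw [← map_mul, comm_of_sq h2 hx hy, map_mul]))
      · obtain ⟨-, v, hv, hv', rfl⟩ := Finset.mem_filter.1 hj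
        exact mkT_ff (ffm_bit h5.1 (sy_lt v) (act_fix h5.1 hv' (comm_of_sq h2 hx hv)))
    · obtain ⟨-, e, he, rfl, -⟩ := Finset.mem_filter.1 hi'
      have := hi.2 e he
      have h5 : ∀ i < 199, 8 ≤ i → (Nat.shiftLeft (Nat.pred (Nat.shiftLeft 1 191)) 8).testBit i = true := by
        decide +kernel
      exact h5 _ this.2 this.1
    · obtain ⟨-, v, -, -, rfl⟩ := Finset.mem_filter.1 hi'
      show (EV <<< 200).testBit _ = true
      rw [Nat.testBit_shiftLeft, Nat.add_sub_cancel, EV_bit]; simp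
  haveI := Fact.mk Nat.prime_two
  obtain ⟨r, hr⟩ := IsPGroup.iff_card.1 ((pgrp_of_sq h2).map π)
  obtain ⟨w, hw⟩ := IsPGroup.iff_card.1 ((pgrp_of_sq h2).to_inf_left (K := V))
  have h3 := card_split E
  rw [hr, hw, ← pow_add] at h3
  have h4 : 10 ≤ r + w := (Nat.pow_le_pow_iff_right one_lt_two).1 (h3 ▸ hc)
  have h5 : r ≠ 0 := fun e => hn fun x hx => mem_V_of (by
    rw [e, pow_zero, Subgroup.card_eq_one] at hr
    exact Subgroup.mem_bot.1 (hr ▸ Subgroup.mem_map_of_mem π hx))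
  have pw : ∀ {a b : ℕ}, a ≤ b → 2 ^ a ≤ 2 ^ b := Nat.pow_le_pow_right two_pos
  rw [hr] at hS
  rw [hw] at hW
  have fin : ∀ m, (FO <<< 200).testBit m = true ↔ m ∈ W := by
    rcases (show r = 1 ∨ r = 2 ∨ r = 3 ∨ r = 4 ∨ r = 5 ∨ r = 6 ∨ 7 ≤ r by omega) with e | e | e | e | e | e | e
    · exact key _ (1, 256) search1 (by decide) (by subst e; omega) ((pw (show 8 ≤ w by omega)).trans hW)
    · exact key _ (1, 256) search1 (by decide) (by subst e; omega) ((pw (show 8 ≤ w by omega)).trans hW)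
    · exact key _ (7, 128) search1 (by decide) (by subst e; omega) ((pw (show 7 ≤ w by omega)).trans hW)
    · exact key _ (15, 64) search1 (by decide) (by subst e; omega) ((pw (show 6 ≤ w by omega)).trans hW)
    · exact key _ (31, 32) search2 (by decide) (by subst e; omega) ((pw (show 5 ≤ w by omega)).trans hW)
    · exact key _ (63, 16) search1 (by decide) (by subst e; omega) ((pw (show 4 ≤ w by omega)).trans hW)
    · exact key _ (127, 1) search1 (by decide) (by have := pw e; omega) ((pw (Nat.zero_le w)).trans hW)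
  have h6 := fin (m + 200)
  rw [Nat.testBit_shiftLeft, Nat.add_sub_cancel, decide_eq_true (Nat.le_add_left 200 m), Bool.true_and, FO_bit] at h6
  rw [h6, Finset.mem_filter]
  exact ⟨fun ⟨_, v, a, b, c⟩ => ⟨v, a, b, Nat.add_right_cancel c⟩,
    fun ⟨v, a, b, c⟩ => ⟨Finset.mem_range.2 (by have := sy_lt v; omega), v, a, b, by rw [c]⟩⟩

/-- The pointwise stabiliser of the octad. -/
abbrev OO : Subgroup MG := fixF MG oct0

theorem mem_OO {c : ℕ} {g : MG} (hc : RM c g)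
    (h : allLt 24 (fun i => bor (not (tb cO0 i)) (Nat.beq (get24 c i) i)) = true) : g ∈ OO := by
  obtain ⟨g', h1, h2⟩ := codes_fixF (L := [c]) (K := ⊤) (CodesIn.cons trivial hc (CodesIn.nil _)) (s := cO0)
    (by rw [allL_iff]; simpa using h) c List.mem_cons_self
  exact funcRM h2 hc ▸ h1.2

theorem OO_of_fix {g : MG} (hg : g ∈ P2) (h2 : g * g = 1) (h : ∀ c, RM c g → ∀ m ∈ LW, act c m = m) : g ∈ OO := by
  by_cases h1 : g = 1
  · exact h1 ▸ OO.one_mem
  obtain ⟨e, he, hc⟩ := LI_mem hg h2 h1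
  have h3 : allL LI (fun e => force (Nat.shiftRight e 8) fun c => bor (not (allL [36, 202, 282, 600, 1105, 2052]
    fun m => Nat.beq (act c m) m)) (allLt 24 fun i => bor (not (tb cO0 i)) (Nat.beq (get24 c i) i))) = true := by
    decide +kernel
  have h4 := allL_iff.1 h3 e he
  rw [force_eq, bor_eq, Bool.or_eq_true] at h4
  refine mem_OO hc.1 (h4.resolve_left ?_)
  rw [Bool.not_eq_true', Bool.not_eq_false]
  exact allL_iff.2 fun m hm => nbeq.2 (h _ hc.1 m (by revert m; decide))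

theorem OO_fix {g : MG} (hg : g ∈ OO) {c : ℕ} (hc : RM c g) : ∀ m ∈ LW, act c m = m := fun m hm => by
  obtain ⟨d, hd, h⟩ := forall_E16 (f := fun c => force c fun c => allL LW fun m => Nat.beq (act c m) m)
    (by decide +kernel) g hg
  rw [force_eq] at h
  rw [act_congr hc hd]; exact nbeq.1 (allL_iff.1 h m hm)

theorem LW_xor : ∀ a ∈ LW, ∀ b ∈ LW, a ^^^ b ∈ LW := fun a ha b hb => by
  rw [← FO_bit, ← tb_eq]
  exact allL_iff.1 (allL_iff.1 (show allL LW (fun a => allL LW fun b => tb FO (Nat.xor a b)) = true by decide +kernel)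
    a ha) b hb

theorem sy_mul_O {a b : K} (ha : π a ∈ OO) (hb : sy b ∈ LW) : sy (a * b) = sy b ^^^ sy a := by
  obtain ⟨c, hc⟩ := exC (π a)
  rw [sy_mul hc.1, OO_fix ha hc.1 _ hb]

theorem sq_A {a : K} (h : π a ∈ OO) (h' : sy a ∈ LW) : a * a = 1 :=
  ext_K (by rw [map_mul, sq_fixOct oct0_mem h, map_one]) (by rw [sy_mul_O h h', Nat.xor_self, sy_one])

/-- The elementary abelian group of order `2^10` over the octad group. -/
def AK : Subgroup K where
  carrier := {k | π k ∈ OO ∧ sy k ∈ LW}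
  mul_mem' ha hb := ⟨by rw [map_mul]; exact OO.mul_mem ha.1 hb.1, by rw [sy_mul_O ha.1 hb.2]; exact LW_xor _ hb.2 _ ha.2⟩
  one_mem' := ⟨by rw [map_one]; exact OO.one_mem, by rw [sy_one]; decide⟩
  inv_mem' ha := by rwa [inv_eq_of_mul_eq_one_right (sq_A ha.1 ha.2)]

theorem mem_AK {k : K} : k ∈ AK ↔ π k ∈ OO ∧ sy k ∈ LW := Iff.rfl

theorem AK_sq : ∀ x ∈ AK, x * x = 1 := fun _ h => sq_A h.1 h.2

theorem LW_ok : ∀ m ∈ LW, okV m = true := allL_iff.1 (by decide +kernel)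

theorem card_AK : Nat.card AK = 1024 := by
  have : Nat.card (OO × {m // m ∈ LW.toFinset}) = 1024 := by
    rw [Nat.card_prod, card_fixOct oct0_mem, Nat.card_eq_fintype_card, Fintype.card_coe,
      List.toFinset_card_of_nodup (by decide)]; rfl
  rw [← this]
  refine Nat.card_eq_of_bijective (fun k => (⟨π k.1, k.2.1⟩, ⟨sy k.1, List.mem_toFinset.2 k.2.2⟩))
    ⟨fun a b h => Subtype.ext (ext_K (congrArg (·.1.1) h) (congrArg (·.2.1) h)), fun ⟨g, m⟩ => ?_⟩
  obtain ⟨k, h1, h2⟩ := exists_K g.1 (LW_ok _ (List.mem_toFinset.1 m.2))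
  exact ⟨⟨k, h1 ▸ g.2, h2 ▸ List.mem_toFinset.1 m.2⟩, Prod.ext (Subtype.ext h1) (Subtype.ext h2)⟩

theorem fix_split {x : K} (hx : π x ∈ OO) (h1 : π x ≠ 1) (h2 : x * x = 1) {c : ℕ} (hc : RM c (π x)) :
    sy x ∈ LW ∨ sy x ^^^ (act c 5 ^^^ 5) ∈ LW := by
  obtain ⟨d, hd, h⟩ := forall_E16 (f := fun c => force c fun c => bor (Nat.beq c one24)
    (Nat.beq (Nat.land (Nat.land (ffm c) EV) (Nat.lor FO (mkM (mapL (Nat.xor · (Nat.xor (act c 5) 5)) LW))))
      (Nat.land (ffm c) EV))) (by decide +kernel) _ hx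
  rw [force_eq, bor_eq, Bool.or_eq_true, nbeq] at h
  have h3 := sy_mul hd x
  rw [h2, sy_one] at h3
  have h4 := Spor.Ct.land_sub (h.resolve_left fun e => h1 (funcRM hd (e ▸ grpM.one))) (i := sy x) (by
    show (ffm d &&& EV).testBit _ = true
    rw [Nat.testBit_and, ffm_bit hd (sy_lt x) (Nat.xor_eq_zero_iff.1 h3.symm), EV_bit]; rfl)
  have h5 : (FO ||| mkM (mapL (Nat.xor · (Nat.xor (act d 5) 5)) LW)).testBit (sy x) = true := h4
  rw [Nat.testBit_or, Bool.or_eq_true, FO_bit, mkM_bit, mapL_eq, List.mem_map] at h5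
  refine h5.imp_right fun ⟨a, ha, e⟩ => ?_
  rw [act_congr hc hd, ← e]
  show a ^^^ (act d 5 ^^^ 5) ^^^ (act d 5 ^^^ 5) ∈ LW
  rwa [Nat.xor_xor_cancel_right]

theorem moves {g h : MG} (hg : g ∈ OO) (hh : h ∈ OO) (g1 : g ≠ 1) (h1 : h ≠ 1) (e : g ≠ h) {c d : ℕ} (hc : RM c g)
    (hd : RM d h) : act d (act c 5 ^^^ 5) ≠ act c 5 ^^^ 5 := by
  obtain ⟨c', hc', h2⟩ := forall_E16 (f := fun c => force c fun c => bor (Nat.beq c one24) (allL lE16 fun d =>
    force (mul24 one24 d) fun d => bor (Nat.beq d one24) (bor (Nat.beq c d)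
      (not (Nat.beq (act d (Nat.xor (act c 5) 5)) (Nat.xor (act c 5) 5)))))) (by decide +kernel) g hg
  rw [force_eq, bor_eq, Bool.or_eq_true, nbeq] at h2
  obtain ⟨d', hd', h3⟩ := forall_E16 (f := fun d => force d fun d => bor (Nat.beq d one24) (bor (Nat.beq c' d)
      (not (Nat.beq (act d (Nat.xor (act c' 5) 5)) (Nat.xor (act c' 5) 5)))))
    (h2.resolve_left fun e => g1 (funcRM hc' (e ▸ grpM.one))) h hh
  simp only [force_eq, bor_eq, Bool.or_eq_true, nbeq, Bool.not_eq_true', nbeq_false] at h3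
  rw [act_congr hc hc', act_congr hd hd']
  exact (h3.resolve_left fun e => h1 (funcRM hd' (e ▸ grpM.one))).resolve_left fun e' => e (funcRM hc' (e' ▸ hd'))

theorem ea_le {E : Subgroup K} (h2 : ∀ x ∈ E, x * x = 1) (hc : 2 ^ 10 ≤ Nat.card E) (hn : ¬ E ≤ V) :
    ∃ u : K, ∀ x ∈ E, u * x * u⁻¹ ∈ AK := by
  obtain ⟨g, -, hg⟩ := exists_conj_le_sylow (K := ⊤) (Q := E.map π) Nat.prime_two le_top le_top card_P2 card_top_MG
    (by decide) ((pgrp_of_sq h2).map π)
  obtain ⟨u, rfl⟩ := π_surj g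
  set E' := E.map (MulAut.conj u).toMonoidHom
  have h3 : ∀ x ∈ E', x * x = 1 := by
    rintro _ ⟨x, hx, rfl⟩; rw [← map_mul, h2 x hx, map_one]
  have h4 : ∀ x ∈ E', π x ∈ P2 := by
    rintro _ ⟨x, hx, rfl⟩
    have := hg _ (Subgroup.mem_map_of_mem π hx)
    rwa [← map_inv, ← map_mul, ← map_mul] at this
  have hW := ea_W h3 (by rwa [card_map_conj]) h4 fun h => hn fun x hx => by
    have := V_normal.conj_mem _ (h (Subgroup.mem_map_of_mem _ hx)) u⁻¹
    simpa [mul_assoc] using this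
  have hO : ∀ x ∈ E', π x ∈ OO := fun x hx => OO_of_fix (h4 x hx) (by rw [← map_mul, h3 x hx, map_one])
    fun c hc m hm => by
      obtain ⟨v, hv, hv', rfl⟩ := (hW m).1 hm
      exact act_fix hc hv' (comm_of_sq h3 hx hv)
  have mem : ∀ x ∈ E, u * x * u⁻¹ ∈ E' := fun x hx => Subgroup.mem_map_of_mem _ hx
  by_cases h5 : ∀ x ∈ E', sy x ∈ LW
  · exact ⟨u, fun x hx => ⟨hO _ (mem x hx), h5 _ (mem x hx)⟩⟩
  push Not at h5
  obtain ⟨x, hx, h5⟩ := h5
  have inV : ∀ y ∈ E', π y = 1 → sy y ∈ LW := fun y hy e => (hW _).2 ⟨y, hy, mem_V_of e, rfl⟩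
  have x1 : π x ≠ 1 := fun e => h5 (inV x hx e)
  obtain ⟨c, hc'⟩ := exC (π x)
  obtain ⟨v, hv1, hv2⟩ := exists_K 1 (m := 5) (by decide +kernel)
  have hv := mem_V_of hv1
  refine ⟨v * u, fun y0 hy0 => ?_⟩
  rw [show v * u * y0 * (v * u)⁻¹ = v * (u * y0 * u⁻¹) * v⁻¹ by group]
  have hy := mem y0 hy0
  generalize u * y0 * u⁻¹ = y at hy
  by_cases y1 : π y = 1
  · rw [V_comm hv (mem_V_of y1), mul_inv_cancel_right]; exact ⟨hO y hy, inV y hy y1⟩
  obtain ⟨d, hd⟩ := exC (π y)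
  have e1 : sy (v * y * v⁻¹) = sy y ^^^ (act d 5 ^^^ 5) := by
    rw [inv_eq_of_mul_eq_one_right (V_sq hv), mul_assoc, sy_mul (hv1 ▸ grpM.one), act_one grpM.one (sy_lt _),
      sy_mul hd.1, hv2, Nat.xor_comm (act d 5), Nat.xor_assoc]
  refine ⟨by rw [map_mul, map_mul, map_inv, hv1]; simpa using hO y hy, ?_⟩
  rw [e1]
  refine (fix_split (hO y hy) y1 (h3 y hy) hd.1).resolve_left fun h6 => ?_
  have h7 := sy_mul_O (hO x hx) h6
  by_cases e : π x = π y
  · have h8 := inV _ (E'.mul_mem hx hy) (by rw [map_mul, e, ← map_mul, h3 y hy, map_one])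
    rw [h7] at h8
    exact h5 (by simpa using LW_xor _ h6 _ h8)
  · have h8 := (fix_split (hO x hx) x1 (h3 x hx) hc'.1).resolve_left h5
    rw [comm_of_sq h3 hx hy, sy_mul hd.1, Nat.xor_comm (sy y)] at h7
    have h9 : act d (sy x) = sy x := by simpa using congrArg (· ^^^ sy y) h7
    have h10 := OO_fix (hO y hy) hd.1 _ h8
    rw [act_xor hd.1, h9] at h10
    exact moves (hO x hx) (hO y hy) x1 y1 e hc'.1 hd.1 (by simpa using congrArg (sy x ^^^ ·) h10)

/-- An elementary abelian subgroup of order at least `2^10` lies in `V` or is conjugate to `AK`. -/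
theorem ea_cases {E : Subgroup K} (h2 : ∀ x ∈ E, x * x = 1) (hc : 2 ^ 10 ≤ Nat.card E) :
    E ≤ V ∨ ∃ u : K, E.map (MulAut.conj u).toMonoidHom = AK := by
  refine or_iff_not_imp_left.2 fun hn => ?_
  obtain ⟨u, hu⟩ := ea_le h2 hc hn
  refine ⟨u, Subgroup.eq_of_le_of_card_ge ?_ (by rw [card_AK, card_map_conj]; exact hc)⟩
  rintro _ ⟨x, hx, rfl⟩; exact hu x hx

theorem ea_eq_V {E : Subgroup K} (h2 : ∀ x ∈ E, x * x = 1) (hc : 2 ^ 11 ≤ Nat.card E) : E = V := by
  rcases ea_cases h2 (le_trans (by decide) hc) with h | ⟨u, h⟩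
  · exact Subgroup.eq_of_le_of_card_ge h (by rw [cardV]; exact hc)
  · have := card_map_conj u E
    rw [h, card_AK] at this
    omega

end Cfsg.Agent.J4F
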