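import Cfsg.Agent.Spor.BigMat

/-! Matrices over the field with two elements as single numbers, one bit per entry (helper16). `mul2` multiplies,
`X` are expressions in letters, `Rp f A g` says that `A` codes the matrix of `g`. -/

set_option autoImplicit false

namespace Cfsg.Agent.J4F
open Cfsg.Agent.Spor Matrix

/-- A bit as a scalar. -/
def b2 (b : Bool) : ZMod 2 := if b then 1 else 0

theorem b2_xor (a b : Bool) : b2 (xor a b) = b2 a + b2 b := by cases a <;> cases b <;> decide
theorem b2_and (a b : Bool) : b2 (a && b) = b2 a * b2 b := by cases a <;> cases b <;> decide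
theorem b2_inj {a b : Bool} (h : b2 a = b2 b) : a = b := by revert h; cases a <;> cases b <;> decide

/-- The matrix coded by `A` (column after column). -/
def M2 (K A : ℕ) : Matrix (Fin K) (Fin K) (ZMod 2) := Matrix.of fun i l => b2 (A.testBit (K * l + i))

noncomputable def acc2 (K m R n : ℕ) : ℕ → ℕ → ℕ → ℕ :=
  Nat.rec (motive := fun _ => ℕ → ℕ → ℕ → ℕ) (fun _ _ s => s)
    (fun _ ih A Y s => seq (Nat.xor s (Nat.mul (Nat.land A m) (Nat.land Y R))) fun s' =>
      seq (Nat.shiftRight A K) fun A' => seq (Nat.shiftRight Y 1) fun Y' => ih A' Y' s') n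

/-- The product. -/
noncomputable def mul2 (K A Y : ℕ) : ℕ :=
  seq A fun A => seq Y fun Y => acc2 K (Nat.pred (Nat.shiftLeft 1 K)) (rep K K) K A Y 0

/-- The identity. -/
def id2 (K : ℕ) : ℕ := rep (Nat.succ K) K

theorem pred_shl (K : ℕ) : Nat.pred (Nat.shiftLeft 1 K) = 2 ^ K - 1 := by
  have e : Nat.shiftLeft 1 K = 2 ^ K := Nat.one_shiftLeft _
  rw [e]; rfl

theorem outer_bit {K : ℕ} (A Y : ℕ) {i : ℕ} (hi : i < K) (l : ℕ) :
    (Nat.mul (Nat.land A (2 ^ K - 1)) (Nat.land Y (rep K K))).testBit (K * l + i) =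
      (decide (l < K) && (A.testBit i && Y.testBit (K * l))) := by
  have hK : 0 < K := by omega
  have h1 : ∀ k, dg K (Nat.land Y (rep K K)) k = if k < K ∧ Y.testBit (K * k) = true then 1 else 0 := fun k => by
    rw [dg_land, dg_rep hK]
    by_cases hk : k < K
    · have := testBit_dg K Y k 0
      rw [Nat.add_zero, decide_eq_true hK, Bool.true_and, Nat.testBit_zero] at this
      rw [if_pos hk, Nat.and_one_is_mod, ← this]
      rcases Nat.mod_two_eq_zero_or_one (dg K Y k) with h | h <;> simp [h, hk]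
    · simp [hk]
  have h2 : Nat.land A (2 ^ K - 1) < 2 ^ K := by
    rw [show Nat.land A (2 ^ K - 1) = A % 2 ^ K from Nat.and_two_pow_sub_one_eq_mod A K]
    exact Nat.mod_lt _ (Nat.two_pow_pos K)
  have h3 := dg_mul (w := K) (x := Nat.land Y (rep K K)) (c := Nat.land A (2 ^ K - 1))
    (fun k => by
      rw [h1]; split_ifs
      · rwa [Nat.mul_one]
      · exact Nat.two_pow_pos K) l
  have h4 := testBit_dg K (Nat.land A (2 ^ K - 1) * Nat.land Y (rep K K)) l i
  rw [decide_eq_true hi, Bool.true_and] at h4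
  rw [show Nat.mul (Nat.land A (2 ^ K - 1)) (Nat.land Y (rep K K)) = _ * _ from rfl, ← h4, h3, h1]
  have h5 : (Nat.land A (2 ^ K - 1)).testBit i = A.testBit i := by
    rw [show Nat.land A (2 ^ K - 1) = A &&& (2 ^ K - 1) from rfl, Nat.testBit_and, Nat.testBit_two_pow_sub_one]
    simp [hi]
  generalize Nat.land A (2 ^ K - 1) = c at h5
  by_cases hl : l < K <;> cases hy : Y.testBit (K * l) <;> simp [hl, h5]

theorem acc2_bit {K i : ℕ} (hi : i < K) (l n : ℕ) : ∀ A Y s : ℕ,
    b2 ((acc2 K (2 ^ K - 1) (rep K K) n A Y s).testBit (K * l + i)) = b2 (s.testBit (K * l + i)) +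
      if l < K then ∑ j ∈ Finset.range n, b2 (A.testBit (K * j + i)) * b2 (Y.testBit (K * l + j)) else 0 := by
  induction n with
  | zero => intro A Y s; simp [acc2]
  | succ n ih =>
    intro A Y s
    have e : acc2 K (2 ^ K - 1) (rep K K) (n + 1) A Y s = acc2 K (2 ^ K - 1) (rep K K) n (A >>> K) (Y >>> 1)
        (s ^^^ Nat.mul (Nat.land A (2 ^ K - 1)) (Nat.land Y (rep K K))) := by
      show seq (Nat.xor s (Nat.mul (Nat.land A (2 ^ K - 1)) (Nat.land Y (rep K K)))) (fun s' =>
        seq (Nat.shiftRight A K) fun A' => seq (Nat.shiftRight Y 1) fun Y' => acc2 K (2 ^ K - 1) (rep K K) n A' Y' s') = _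
      rw [seq_eq, seq_eq, seq_eq]; rfl
    rw [e, ih, Nat.testBit_xor, b2_xor, outer_bit A Y hi, Finset.sum_range_succ']
    by_cases hl : l < K
    · simp only [hl, if_true, decide_true, Bool.true_and, b2_and, Nat.testBit_shiftRight, Nat.mul_zero, Nat.zero_add,
        Nat.add_zero]
      rw [add_assoc, add_comm (b2 (A.testBit i) * _)]
      congr 2
      refine Finset.sum_congr rfl fun j _ => ?_
      congr 3 <;> ring
    · simp [hl, b2]

theorem mul2_eq (K A Y : ℕ) : mul2 K A Y = acc2 K (2 ^ K - 1) (rep K K) K A Y 0 := by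
  rw [mul2, seq_eq, seq_eq, pred_shl]

theorem M2_mul2 (K A Y : ℕ) : M2 K (mul2 K A Y) = M2 K A * M2 K Y := by
  ext i l
  rw [mul_apply, mul2_eq]
  show b2 _ = ∑ j : Fin K, b2 _ * b2 _
  rw [acc2_bit i.2, if_pos l.2, Finset.sum_range]
  simp [b2]

theorem lt_of_bits {K A : ℕ} (h : ∀ l i, K ≤ l → i < K → A.testBit (K * l + i) = false) (h0 : K = 0 → A = 0) :
    A < 2 ^ (K * K) := by
  rcases Nat.eq_zero_or_pos K with rfl | hK
  · rw [h0 rfl]; exact Nat.one_pos
  refine Nat.lt_pow_two_of_testBit _ fun p hp => ?_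
  have := h (p / K) (p % K) ((Nat.le_div_iff_mul_le hK).2 hp) (Nat.mod_lt _ hK)
  rwa [Nat.div_add_mod] at this

theorem mul2_lt (K A Y : ℕ) : mul2 K A Y < 2 ^ (K * K) := by
  refine lt_of_bits (fun l i hl hi => b2_inj ?_) fun h => by subst h; rw [mul2_eq]; rfl
  rw [mul2_eq, acc2_bit hi, if_neg (by omega)]
  simp [b2]

theorem M2_inj {K A B : ℕ} (hA : A < 2 ^ (K * K)) (hB : B < 2 ^ (K * K)) (h : M2 K A = M2 K B) : A = B := by
  refine Nat.eq_of_testBit_eq fun p => ?_
  by_cases hp : p < K * K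
  · have hK : 0 < K := Nat.pos_of_ne_zero fun e => by subst e; omega
    have := congrFun (congrFun h ⟨p % K, Nat.mod_lt _ hK⟩) ⟨p / K, (Nat.div_lt_iff_lt_mul hK).2 hp⟩
    have := b2_inj this
    rwa [Nat.div_add_mod] at this
  · rw [Nat.testBit_lt_two_pow (lt_of_lt_of_le hA (Nat.pow_le_pow_right (by decide) (by omega))),
      Nat.testBit_lt_two_pow (lt_of_lt_of_le hB (Nat.pow_le_pow_right (by decide) (by omega)))]

theorem id2_bit (K p : ℕ) : (id2 K).testBit p = decide (p % (K + 1) = 0 ∧ p / (K + 1) < K) := by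
  have h := testBit_dg (K + 1) (id2 K) (p / (K + 1)) (p % (K + 1))
  rw [Nat.div_add_mod, decide_eq_true (Nat.mod_lt _ (Nat.succ_pos K)), Bool.true_and, id2, dg_rep (Nat.succ_pos K)] at h
  rw [id2, ← h]
  by_cases h1 : p / (K + 1) < K
  · rw [if_pos h1, Bool.eq_iff_iff, Nat.testBit_one_eq_true_iff_self_eq_zero]; simp [h1]
  · simp [h1]

theorem id2_lt (K : ℕ) : id2 K < 2 ^ (K * K) := by
  refine Nat.lt_pow_two_of_testBit _ fun p hp => ?_
  rw [id2_bit, decide_eq_false]
  rintro ⟨h1, h2⟩
  have h3 := Nat.div_add_mod p (K + 1)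
  have : (K + 1) * (p / (K + 1) + 1) ≤ (K + 1) * K := Nat.mul_le_mul_left _ h2
  nlinarith

theorem M2_id2 (K : ℕ) : M2 K (id2 K) = 1 := by
  ext i l
  show b2 _ = _
  rw [id2_bit, one_apply]
  have hi := i.2
  have hl := l.2
  split_ifs with h
  · subst h
    rw [show K * i + i = (K + 1) * i by ring, Nat.mul_mod_right, Nat.mul_div_cancel_left _ (Nat.succ_pos K)]
    simp [b2]
  · rw [decide_eq_false]; · rfl
    rintro ⟨h1, -⟩
    obtain ⟨c, hc⟩ := Nat.dvd_of_mod_eq_zero h1
    apply h; ext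
    rcases lt_trichotomy c l with e | e | e
    · have : (K + 1) * (c + 1) ≤ (K + 1) * l := Nat.mul_le_mul_left _ e
      nlinarith
    · subst e; nlinarith
    · have : (K + 1) * (l + 1) ≤ (K + 1) * c := Nat.mul_le_mul_left _ e
      nlinarith

theorem M2_xor (K A B : ℕ) : M2 K (A ^^^ B) = M2 K A + M2 K B := by
  ext i l
  show b2 _ = b2 _ + b2 _
  rw [Nat.testBit_xor, b2_xor]

theorem mul2_assoc (K A B C : ℕ) : mul2 K (mul2 K A B) C = mul2 K A (mul2 K B C) :=
  M2_inj (mul2_lt ..) (mul2_lt ..) (by simp only [M2_mul2, Matrix.mul_assoc])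

theorem mul2_xor (K A B C : ℕ) : mul2 K A (B ^^^ C) = mul2 K A B ^^^ mul2 K A C :=
  M2_inj (mul2_lt ..) (Nat.xor_lt_two_pow (mul2_lt ..) (mul2_lt ..)) (by simp only [M2_mul2, M2_xor, Matrix.mul_add])

theorem id2_mul2 {K A : ℕ} (h : A < 2 ^ (K * K)) : mul2 K (id2 K) A = A :=
  M2_inj (mul2_lt ..) h (by rw [M2_mul2, M2_id2, Matrix.one_mul])

/-- Expressions: letter, word (in the reverse order of `ev`), product, square, power. -/
inductive X : Type
  | l (i : ℕ) : X
  | w (u : List ℕ) : X
  | m (a b : X) : X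
  | s (a : X) : X
  | p (a : X) (n : ℕ) : X

/-- The value in a group. -/
noncomputable def X.g {G : Type} [Group G] (ys : List G) : X → G
  | .l i => getL ys 1 i
  | .w u => ev (getL ys 1) u
  | .m a b => a.g ys * b.g ys
  | .s a => a.g ys * a.g ys
  | .p a n => a.g ys ^ n

theorem getL_map {G H : Type} [Group G] [Group H] (f : G →* H) (ys : List G) (i : ℕ) :
    getL (ys.map f) 1 i = f (getL ys 1 i) := by
  induction ys generalizing i with
  | nil => exact (map_one f).symm
  | cons a l ih => cases i with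
    | zero => rfl
    | succ i => exact ih i

theorem X.map {G H : Type} [Group G] [Group H] (f : G →* H) (ys : List G) (e : X) :
    e.g (ys.map f) = f (e.g ys) := by
  induction e with
  | l i => exact getL_map f ys i
  | w u => rw [X.g, X.g, map_ev]; exact ev_congr fun x _ => getL_map f ys x
  | m a b ha hb => rw [X.g, X.g, ha, hb, map_mul]
  | s a ha => rw [X.g, X.g, ha, map_mul]
  | p a n ha => rw [X.g, X.g, ha, map_pow]

theorem X.mem {G : Type} [Group G] {ys : List G} {H : Subgroup G} (h : ∀ y ∈ ys, y ∈ H) (e : X) : e.g ys ∈ H := by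
  have h1 : ∀ i, getL ys 1 i ∈ H := fun i => getL_prop (p := (· ∈ H)) ys 1 i H.one_mem h
  induction e with
  | l i => exact h1 i
  | w u => exact ev_mem _ _ fun x _ => h1 x
  | m a b ha hb => exact H.mul_mem ha hb
  | s a ha => exact H.mul_mem ha ha
  | p a n ha => exact H.pow_mem ha n

noncomputable def wdc (mul : ℕ → ℕ → ℕ) (one : ℕ) (As u : List ℕ) : ℕ → ℕ :=
  List.rec (motive := fun _ => ℕ → ℕ) (fun Y => Y) (fun x _ ih Y => seq (mul (getL As one x) Y) ih) u

noncomputable def pwc (mul : ℕ → ℕ → ℕ) (one A n : ℕ) : ℕ :=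
  Nat.rec (motive := fun _ => ℕ → ℕ) (fun Y => Y) (fun _ ih Y => seq (mul A Y) ih) n one

/-- The value as a code. -/
noncomputable def X.c (mul : ℕ → ℕ → ℕ) (one : ℕ) (As : List ℕ) (e : X) : ℕ :=
  X.rec (motive := fun _ => ℕ) (fun i => getL As one i) (fun u => wdc mul one As u one)
    (fun _ _ a b => seq a fun u => seq b fun v => mul u v) (fun _ a => seq a fun u => mul u u)
    (fun _ n a => seq a fun u => pwc mul one u n) e

/-- A faithful model of a group by codes. -/
structure Md {G : Type} [Group G] (R : ℕ → G → Prop) (mul : ℕ → ℕ → ℕ) (one : ℕ) : Prop where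
  mul : ∀ ⦃a g b h⦄, R a g → R b h → R (mul a b) (g * h)
  one : R one 1
  func : ∀ ⦃a x y⦄, R a x → R a y → x = y
  canon : ∀ ⦃a b x⦄, R a x → R b x → a = b

/-- The letters `ys` have the codes `As`. -/
def Al {G : Type} [Group G] (R : ℕ → G → Prop) (one : ℕ) (As : List ℕ) (ys : List G) : Prop :=
  ∀ i, R (getL As one i) (getL ys 1 i)

section
variable {G : Type} [Group G] {R : ℕ → G → Prop} {mul : ℕ → ℕ → ℕ} {one : ℕ}

theorem congr_beq {A B : ℕ} {a : G} (ha : R A a) (h : Nat.beq A B = true) : R B a :=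
  Nat.eq_of_beq_eq_true h ▸ ha

theorem Al.cons {A : ℕ} {a : G} {As : List ℕ} {ys : List G} (h : R A a) (h' : Al R one As ys) :
    Al R one (A :: As) (a :: ys) := fun i => by
  cases i with
  | zero => exact h
  | succ i => exact h' i

theorem Al.append {As Bs : List ℕ} {ys zs : List G} (h : Al R one As ys) (h' : Al R one Bs zs)
    (hl : As.length = ys.length) : Al R one (As ++ Bs) (ys ++ zs) := by
  induction As generalizing ys with
  | nil => cases ys with
    | nil => exact h'
    | cons => cases hl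
  | cons A As ih => cases ys with
    | nil => cases hl
    | cons y ys => exact Al.cons (h 0) (ih (fun i => h (i + 1)) (Nat.succ.inj hl))

variable (M : Md R mul one)
include M

theorem Md.nil : Al R one [] ([] : List G) := fun _ => M.one

theorem Md.eq_iff {a b : ℕ} {x y : G} (ha : R a x) (hb : R b y) : x = y ↔ a = b :=
  ⟨fun e => M.canon ha (e ▸ hb), fun e => M.func ha (e ▸ hb)⟩

theorem Md.pow {A : ℕ} {a : G} (ha : R A a) (n : ℕ) : R (pwc mul one A n) (a ^ n) := by
  have : ∀ Y y, R Y y → R (Nat.rec (motive := fun _ => ℕ → ℕ) (fun Y => Y)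
      (fun _ ih Y => seq (mul A Y) ih) n Y) (a ^ n * y) := by
    induction n with
    | zero => intro Y y h; rwa [pow_zero, one_mul]
    | succ n ih =>
      intro Y y h
      have := ih _ _ (M.mul ha h)
      rw [← mul_assoc, ← pow_succ] at this
      show R (seq _ _) _
      rwa [seq_eq]
  have h := this _ _ M.one
  rwa [mul_one] at h

variable {As : List ℕ} {ys : List G} (h : Al R one As ys)
include h

theorem Md.wd (u : List ℕ) {Y : ℕ} {y : G} (hy : R Y y) : R (wdc mul one As u Y) (ev (getL ys 1) u * y) := by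
  induction u generalizing Y y with
  | nil => rwa [ev_nil, one_mul]
  | cons x u ih =>
    have := ih (M.mul (h x) hy)
    rw [← mul_assoc] at this
    show R (seq _ _) _
    rwa [seq_eq]

theorem Md.rp (e : X) : R (e.c mul one As) (e.g ys) := by
  induction e with
  | l i => exact h i
  | w u => have h := M.wd h u M.one; rwa [mul_one] at h
  | m a b ha hb =>
    show R (seq (a.c mul one As) fun u => seq (b.c mul one As) fun v => mul u v) _
    rw [seq_eq, seq_eq]; exact M.mul ha hb
  | s a ha => show R (seq (a.c mul one As) fun u => mul u u) _; rw [seq_eq]; exact M.mul ha ha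
  | p a n ha => show R (seq (a.c mul one As) fun u => pwc mul one u n) _; rw [seq_eq]; exact M.pow ha n

theorem Md.new (e : X) {A : ℕ} (hc : Nat.beq (e.c mul one As) A = true) : R A (e.g ys) := congr_beq (M.rp h e) hc

theorem Md.eq (a b : X) (hc : Nat.beq (a.c mul one As) (b.c mul one As) = true) : a.g ys = b.g ys :=
  M.func (M.new h a hc) (M.rp h b)

theorem Md.eq1 (a : X) (hc : Nat.beq (a.c mul one As) one = true) : a.g ys = 1 := M.func (M.new h a hc) M.one

theorem Md.ne (a b : X) (hc : Nat.beq (a.c mul one As) (b.c mul one As) = false) : a.g ys ≠ b.g ys := fun e => by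
  rw [M.canon (M.rp h a) (e ▸ M.rp h b), Nat.beq_refl] at hc; cases hc

theorem Md.ne1 (a : X) (hc : Nat.beq (a.c mul one As) one = false) : a.g ys ≠ 1 := fun e => by
  rw [M.canon (M.rp h a) (e ▸ M.one), Nat.beq_refl] at hc; cases hc

/-- A list of equations. -/
theorem Md.eqs (es : List (X × X))
    (hc : allL es (fun e => Nat.beq (e.1.c mul one As) (e.2.c mul one As)) = true) : ∀ e ∈ es, e.1.g ys = e.2.g ys :=
  fun e he => M.eq h _ _ (allL_spec hc e he)

theorem Md.nes (es : List (X × X))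
    (hc : allL es (fun e => !Nat.beq (e.1.c mul one As) (e.2.c mul one As)) = true) : ∀ e ∈ es, e.1.g ys ≠ e.2.g ys :=
  fun e he => M.ne h _ _ (by simpa using allL_spec hc e he)

/-- Relators. -/
theorem Md.rels (rs : List (List ℕ)) (hc : allL rs (fun r => Nat.beq (wdc mul one As r one) one) = true) :
    ∀ r ∈ rs, ev (getL ys 1) r = 1 := fun r hr => M.eq1 h (.w r) (allL_spec hc r hr)

/-- New letters. -/
theorem Md.al (es : List X) (Bs : List ℕ) (hl : es.length = Bs.length)
    (hc : ∀ i < es.length, Nat.beq ((getL es (.l 0) i).c mul one As) (getL Bs 0 i) = true) :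
    Al R one Bs (es.map (X.g ys)) := by
  induction es generalizing Bs with
  | nil => cases Bs with
    | nil => exact M.nil
    | cons => cases hl
  | cons e es ih => cases Bs with
    | nil => cases hl
    | cons B Bs =>
      exact Al.cons (M.new h e (hc 0 (Nat.succ_pos _)))
        (ih Bs (Nat.succ.inj hl) fun i hi => hc (i + 1) (Nat.succ_lt_succ hi))

/-- New letters with computed codes. -/
theorem Md.al' (es : List X) : Al R one (es.map (X.c mul one As)) (es.map (X.g ys)) := by
  induction es with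
  | nil => exact M.nil
  | cons e es ih => exact Al.cons (M.rp h e) ih

end

section
variable {G : Type} [Group G] {K : ℕ} (f : G →* Matrix (Fin K) (Fin K) (ZMod 2))

/-- `A` codes the matrix of `g`. -/
def Rp (A : ℕ) (g : G) : Prop := A < 2 ^ (K * K) ∧ f g = M2 K A

theorem md_Rp (inj : Function.Injective f) : Md (Rp f) (mul2 K) (id2 K) :=
  ⟨fun _ _ _ _ ha hb => ⟨mul2_lt .., by rw [map_mul, M2_mul2, ha.2, hb.2]⟩, ⟨id2_lt K, by rw [map_one, M2_id2]⟩,
    fun _ _ _ ha hb => inj (ha.2.trans hb.2.symm), fun _ _ _ ha hb => M2_inj ha.1 hb.1 (ha.2.symm.trans hb.2)⟩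

end

end Cfsg.Agent.J4F
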