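import Cfsg.Agent.J4T.C1
import Cfsg.Agent.Golay.Classes
import Cfsg.Agent.J4F.Mat2

/-! Codes for `K = 2^11:M24` (helper16): `π : K →* M24`, `sy k` the translation part as a syndrome of an even set,
`RK c k` (`c = 4096 * code of π k + sy k`), `kmul`, `kinv`, `kone`; every `c` with `okK c` is a code (`el c`). -/

set_option autoImplicit false
set_option maxRecDepth 100000
set_option exponentiation.threshold 100000

namespace Cfsg.Agent.J4F
open Cfsg.Agent.Comp Cfsg.Agent.Golay Cfsg.Agent.J4T Cfsg.Agent.J4T.C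
open Cfsg.Agent.Spor (ev getL genL genW)
open scoped Pointwise

theorem mdM : Md CM mul24 one24 := ⟨grpCM.mul, grpCM.one, canCM.func, canCM.canon⟩

def pcs : List ℕ := [45757359341883076270746243810669300, 763537017092496849715662450712698468,
  100301654860369501057429837550111239, 984818244535754528103549039458486304]

noncomputable def pys : List MG := [elt 45757359341883076270746243810669300 (by decide +kernel),
  elt 763537017092496849715662450712698468 (by decide +kernel),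
  elt 100301654860369501057429837550111239 (by decide +kernel), 1]

theorem alp : Al CM one24 pcs pys :=
  .cons ⟨elt_rep _ _, by decide +kernel⟩ (.cons ⟨elt_rep _ _, by decide +kernel⟩ (.cons ⟨elt_rep _ _, by decide +kernel⟩
    (.cons (congr_beq grpCM.one (by decide +kernel)) mdM.nil)))

theorem exπ : ∃ π : K →* MG, ∀ i < 4, π (Spor.J4H.g i) = getL pys 1 i :=
  Spor.J4H.lifts _ _ (mdM.rels alp _ (by decide +kernel))

/-- The quotient map `K → M24`. -/
noncomputable def π : K →* MG := exπ.choose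

theorem yK_eq : ∀ x < 4, Spor.J4L.yK x = Spor.J4H.g x := fun x hx => by
  interval_cases x <;> exact Spor.ev_one _ _

theorem π_yK {x : ℕ} (hx : x < 4) : CM (getL pcs one24 x) (π (Spor.J4L.yK x)) := by
  rw [yK_eq x hx, show π _ = _ from exπ.choose_spec x hx]; exact alp x

/-- The action of a code of `M24` on syndromes. -/
def act (a m : ℕ) : ℕ := syn (img24 a (Nat.shiftLeft m 12))

theorem syn_xor (s t : ℕ) : syn (s ^^^ t) = syn s ^^^ syn t := by
  show (s ^^^ t ^^^ gE (s ^^^ t)) >>> 12 = (s ^^^ gE s) >>> 12 ^^^ (t ^^^ gE t) >>> 12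
  rw [gE_xor, ← Nat.shiftRight_xor_distrib]
  congr 1
  simp only [Nat.xor_assoc, Nat.xor_left_comm]

theorem syn_shl (n : ℕ) : syn (n <<< 12) = n := by
  have h : gE (n <<< 12) = 0 := by
    rw [← gE_and, show (4095 : ℕ) = 2 ^ 12 - 1 from rfl, Nat.and_two_pow_sub_one_eq_mod, Nat.shiftLeft_eq,
      Nat.mul_mod_left]
    decide +kernel
  show (n <<< 12 ^^^ gE (n <<< 12)) >>> 12 = n
  rw [h, Nat.xor_zero, Nat.shiftLeft_shiftRight]

theorem shl_lt {n : ℕ} (h : n < 4096) : n <<< 12 < 2 ^ 24 := by rw [Nat.shiftLeft_eq]; omega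

section
variable {a b c : ℕ} {g h : MG}

theorem act_lt (ha : RM a g) (m : ℕ) : act a m < 4096 := syn_lt (ha.imgP_lt _)

theorem act_syn (ha : RM a g) {s : ℕ} (hs : s < 2 ^ 24) : act a (syn s) = syn (img24 a s) := by
  refine (syn_eq_iff_supp (ha.imgP_lt _) (ha.imgP_lt _)).2 ?_
  rw [← ha.smul_ofMask, ← ha.smul_ofMask, smul_symmDiff', smul_mem_supp_iff]
  exact (syn_eq_iff_supp (shl_lt (syn_lt hs)) hs).1 (syn_shl _)

theorem img_mul (ha : RM a g) (hb : RM b h) (hc : RM c (g * h)) (s : ℕ) : img24 c s = img24 a (img24 b s) :=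
  EG.ofMask_inj (hc.imgP_lt _) (ha.imgP_lt _) (by
    rw [← hc.smul_ofMask, ← ha.smul_ofMask, ← hb.smul_ofMask, mul_smul])

theorem act_mul (ha : RM a g) (hb : RM b h) (hc : RM c (g * h)) (m : ℕ) : act c m = act a (act b m) := by
  rw [act, act.eq_1 b, act_syn ha (hb.imgP_lt _), img_mul ha hb hc]

theorem img_xor (ha : RM a g) (s t : ℕ) : img24 a (s ^^^ t) = img24 a s ^^^ img24 a t := by
  refine EG.ofMask_inj (ha.imgP_lt _) (Nat.xor_lt_two_pow (ha.imgP_lt _) (ha.imgP_lt _)) ?_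
  rw [EG.ofMask_xor, ← ha.smul_ofMask, ← ha.smul_ofMask, ← ha.smul_ofMask, EG.ofMask_xor, smul_symmDiff']

theorem act_xor (ha : RM a g) (m n : ℕ) : act a (m ^^^ n) = act a m ^^^ act a n := by
  rw [act, act, act, ← syn_xor, ← img_xor ha]
  exact congrArg (fun x => syn (img24 a x)) Nat.shiftLeft_xor_distrib

theorem act_zero (ha : RM a g) : act a 0 = 0 := by
  have := act_xor ha 0 0
  rwa [Nat.xor_self, Nat.xor_self] at this

theorem act_one (ha : RM a 1) {m : ℕ} (hm : m < 4096) : act a m = m := by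
  have : img24 a (Nat.shiftLeft m 12) = m <<< 12 :=
    EG.ofMask_inj (ha.imgP_lt _) (shl_lt hm) (by rw [← ha.smul_ofMask, one_smul]; rfl)
  rw [act, this, syn_shl]

theorem act_congr (ha : RM a g) (hb : RM b g) (m : ℕ) : act a m = act b m := by
  exact congrArg syn (EG.ofMask_inj (ha.imgP_lt _) (hb.imgP_lt _) ((ha.smul_ofMask _).symm.trans (hb.smul_ofMask _)))

end

def Lc : ℕ := 0x3af1eb49c2e3d7d64fb7fa98c1eab819
def Li : ℕ := 0x3d171f6d615813f2be1f71956a66dc063

theorem Li_Lc : ∀ n < 2048, app Li (app Lc n) = n := fun n hn =>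
  nbeq.1 (allLt_iff.1 (show allLt 2048 (fun n => Nat.beq (app Li (app Lc n)) n) = true by decide +kernel) n hn)

theorem Lc_inj {m n : ℕ} (hm : m < 2048) (hn : n < 2048) (h : app Lc m = app Lc n) : m = n := by
  rw [← Li_Lc m hm, h, Li_Lc n hn]

theorem gen_act : allLt 4 (fun x => force (lw [x]) fun M => force (getL pcs one24 x) fun c => allLt 2048 fun n =>
    Nat.beq (app Lc (app M n)) (act c (app Lc n))) = true := by decide +kernel

theorem exC (g : MG) : ∃ c, CM c g := exists_CRep EG par24 g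

theorem Lc_lm (k : K) : ∀ {c : ℕ}, RM c (π k) → ∀ n < 2048, app Lc (lm k n) = act c (app Lc n) := by
  obtain ⟨w, hw, rfl⟩ := word k
  induction w with
  | nil => intro c hc n hn; rw [Spor.ev_nil, map_one] at hc; rw [Spor.ev_nil, lm_one hn, act_one hc (app_lt _ _)]
  | cons x w ih =>
    intro c hc n hn
    have hx := hw x List.mem_cons_self
    obtain ⟨d, hd⟩ := exC (π (ev Spor.J4L.yK w))
    rw [Spor.ev_cons, map_mul] at hc
    have h1 := allLt_iff.1 gen_act x hx
    rw [force_eq, force_eq] at h1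
    have h2 : lm (Spor.J4L.yK x) n = app (lw [x]) n := by
      rw [← Spor.ev_one Spor.J4L.yK]; exact lm_ev (by interval_cases x <;> decide +kernel) hn
    rw [Spor.ev_cons, lm_mul _ _ hn, ih (fun z hz => hw z (List.mem_cons_of_mem _ hz)) hd.1 _ (lm_lt _ hn),
      act_mul hd.1 (π_yK hx).1 hc, h2, nbeq.1 (allLt_iff.1 h1 n hn)]

/-- The translation part of `k` as a syndrome. -/
noncomputable def sy (k : K) : ℕ := app Lc (co k)

theorem sy_lt (k : K) : sy k < 4096 := app_lt _ _

theorem sy_one : sy 1 = 0 := by rw [sy, co_one, app_zero]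

theorem sy_mul {c : ℕ} {a : K} (hc : RM c (π a)) (b : K) : sy (a * b) = act c (sy b) ^^^ sy a := by
  rw [sy, co_mul, app_xor, Lc_lm a hc _ (co_lt b)]; rfl

theorem sy_conj {c : ℕ} {a v : K} (hc : RM c (π a)) (hv : v ∈ V) : sy (a * v * a⁻¹) = act c (sy v) := by
  rw [sy, co_conj a hv, Lc_lm a hc _ (co_lt v)]; rfl

theorem mem_V_of {k : K} (h : π k = 1) : k ∈ V := mem_V.2 fun n hn =>
  Lc_inj (lm_lt _ hn) hn (by rw [Lc_lm k (h ▸ grpM.one) n hn, act_one grpM.one (app_lt _ _)])

theorem ext_K {a b : K} (h : π a = π b) (h' : sy a = sy b) : a = b :=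
  ext_co (mem_V_of (by rw [map_mul, map_inv, h, mul_inv_cancel])) (Lc_inj (co_lt _) (co_lt _) h')

theorem π_ev {w : List ℕ} (hw : ∀ x ∈ w, x < 4) : π (ev Spor.J4L.yK w) = ev (getL pys 1) w := by
  rw [Spor.map_ev]; exact Spor.ev_congr fun x hx => canCM.func (π_yK (hw x hx)) (alp x)

theorem π_V {v : K} (hv : v ∈ V) : π v = 1 := by
  have h1 : π v0 = 1 := (π_ev (by decide)).trans (mdM.eq1 alp (.w v0w) (by decide +kernel))
  have h2 : π tv0 = 1 := (π_ev (by decide)).trans (mdM.eq1 alp (.w t0w) (by decide +kernel))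
  rcases orbs (co_lt v) with h | ⟨k, h⟩ | ⟨k, h⟩
  · rw [eq_one hv h, map_one]
  · rw [ext_V hv (V_normal.conj_mem _ v0_V k) (by rw [co_conj k v0_V, co_v0, h]), map_mul, map_mul, h1]; simp
  · rw [ext_V hv (V_normal.conj_mem _ tv0_V k) (by rw [co_conj k tv0_V, co_tv0, h]), map_mul, map_mul, h2]; simp

theorem mem_V_iff {k : K} : k ∈ V ↔ π k = 1 := ⟨π_V, mem_V_of⟩

theorem ker_π : π.ker = V := Subgroup.ext fun _ => mem_V_iff.symm

instance finK : Finite K := Spor.J4G.finK

theorem cardK : Nat.card K = 501397585920 := Spor.J4H.card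

theorem cardV : Nat.card V = 2048 := by
  rw [← Nat.card_fin 2048]
  refine Nat.card_eq_of_bijective (fun v => ⟨co v.1, co_lt _⟩) ⟨fun v w h => Subtype.ext (ext_V v.2 w.2 (Fin.mk.inj h)),
    fun n => ?_⟩
  obtain ⟨v, hv, e⟩ := exists_vec n.2
  exact ⟨⟨v, hv⟩, Fin.ext e⟩

theorem π_surj : Function.Surjective π := by
  have h := card_ker_mul π
  rw [ker_π, cardV, cardK] at h
  rw [← MonoidHom.range_eq_top]
  exact Subgroup.eq_top_of_card_eq _ (by rw [card_M24]; omega)

/-- Pairing. -/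
def pk (a m : ℕ) : ℕ := Nat.add (Nat.shiftLeft a 12) m
def hi (c : ℕ) : ℕ := Nat.shiftRight c 12
def lo (c : ℕ) : ℕ := Nat.land c 4095

theorem hi_eq (c : ℕ) : hi c = c / 4096 := Nat.shiftRight_eq_div_pow c 12
theorem lo_eq (c : ℕ) : lo c = c % 4096 := Nat.and_two_pow_sub_one_eq_mod c 12
theorem pk_eq (a m : ℕ) : pk a m = a * 4096 + m := congrArg (· + m) (Nat.shiftLeft_eq a 12)
theorem hi_pk (a : ℕ) {m : ℕ} (h : m < 4096) : hi (pk a m) = a := by rw [hi_eq, pk_eq]; omega
theorem lo_pk (a : ℕ) {m : ℕ} (h : m < 4096) : lo (pk a m) = m := by rw [lo_eq, pk_eq]; omega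
theorem lo_lt (c : ℕ) : lo c < 4096 := by rw [lo_eq]; omega
theorem pk_hi_lo (c : ℕ) : pk (hi c) (lo c) = c := by rw [pk_eq, hi_eq, lo_eq]; omega

/-- `c` is the code of `k`. -/
def RK (c : ℕ) (k : K) : Prop := CM (hi c) (π k) ∧ lo c = sy k

def kmul (a b : ℕ) : ℕ := force a fun a => force b fun b => force (hi a) fun p =>
  pk (mul24 p (hi b)) (Nat.xor (act p (lo b)) (lo a))

def kinv (a : ℕ) : ℕ := force a fun a => force (inv24 (hi a)) fun p => pk p (act p (lo a))

def kone : ℕ := 4033815529618450547112136865621959901184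

theorem kone_eq : kone = pk one24 0 := by decide +kernel

theorem RK.pk {a m : ℕ} {k : K} (h : CM a (π k)) (h' : m = sy k) : RK (pk a m) k := by
  have : m < 4096 := h' ▸ sy_lt k
  exact ⟨by rwa [hi_pk _ this], by rwa [lo_pk _ this]⟩

theorem grpK : IsGrp RK kmul kinv kone := by
  refine ⟨fun a g b h ha hb => ?_, fun a g ha => ?_, ?_⟩
  · rw [kmul, force_eq, force_eq, force_eq]
    exact .pk (by rw [map_mul]; exact grpCM.mul ha.1 hb.1) (by rw [sy_mul ha.1.1, ha.2, hb.2]; rfl)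
  · rw [kinv, force_eq, force_eq]
    have h1 : CM (inv24 (hi a)) (π g⁻¹) := by rw [map_inv]; exact grpCM.inv ha.1
    have h2 := sy_mul h1.1 g
    rw [inv_mul_cancel, sy_one] at h2
    exact .pk h1 (by rw [ha.2]; exact Nat.xor_eq_zero_iff.1 h2.symm)
  · rw [kone_eq]; exact .pk (by rw [map_one]; exact grpCM.one) sy_one.symm

theorem canK : IsCanon RK :=
  ⟨fun _ _ _ h h' => ext_K (canCM.func h.1 h'.1) (h.2.symm.trans h'.2), fun a b _ h h' => by
    rw [← pk_hi_lo a, ← pk_hi_lo b, canCM.canon h.1 h'.1, h.2, h'.2]⟩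

theorem mdK : Md RK kmul kone := ⟨grpK.mul, grpK.one, canK.func, canK.canon⟩

theorem exK (k : K) : ∃ c, RK c k := let ⟨_, h⟩ := exC (π k); ⟨_, .pk h rfl⟩

/-- Syndromes of even sets. -/
def okV (m : ℕ) : Bool := force (app Li m) fun n => band (Nat.blt n 2048) (Nat.beq (app Lc n) m)

theorem okV_sy (k : K) : okV (sy k) = true := by
  rw [okV, force_eq, sy, Li_Lc _ (co_lt k), band_eq, Bool.and_eq_true, nblt, nbeq]; exact ⟨co_lt k, rfl⟩

theorem exists_K (g : MG) {m : ℕ} (hm : okV m = true) : ∃ k, π k = g ∧ sy k = m := by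
  rw [okV, force_eq, band_eq, Bool.and_eq_true, nblt, nbeq] at hm
  obtain ⟨k, rfl⟩ := π_surj g
  obtain ⟨v, hv, e⟩ := exists_vec (Nat.xor_lt_two_pow (n := 11) hm.1 (co_lt k))
  refine ⟨v * k, by rw [map_mul, π_V hv, one_mul], ?_⟩
  rw [sy, co_V_mul hv, e, Nat.xor_xor_cancel_right, hm.2]

def okK (c : ℕ) : Bool := band (band (inM24 (hi c)) (Nat.blt (hi c) (Nat.pow 2 (Nat.mul 5 24)))) (okV (lo c))

theorem exists_RK {c : ℕ} (h : okK c = true) : ∃ k, RK c k := by
  rw [okK, band_eq, band_eq, Bool.and_eq_true, Bool.and_eq_true, nblt] at h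
  obtain ⟨k, h1, h2⟩ := exists_K (elt _ h.1.1) h.2
  exact ⟨k, ⟨h1 ▸ elt_rep _ _, h.1.2⟩, h2.symm⟩

/-- The element with code `c`. -/
noncomputable def el (c : ℕ) : K := open _root_.Classical in if h : ∃ k, RK c k then h.choose else 1

theorem RK.el {c : ℕ} {k : K} (h : RK c k) : el c = k := by
  have h' : ∃ k, RK c k := ⟨k, h⟩
  rw [J4F.el, dif_pos h']; exact canK.func h'.choose_spec h

theorem RK_el {c : ℕ} (h : okK c = true) : RK c (el c) := let ⟨_, hk⟩ := exists_RK h; hk.el ▸ hk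

theorem codesK {L : List ℕ} (h : allL L okK = true) : CodesIn RK L ⊤ := fun c hc =>
  ⟨_, trivial, RK_el (allL_iff.1 h c hc)⟩

theorem alK {L : List ℕ} (h : allL L okK = true) : Al RK kone L (L.map el) := by
  induction L with
  | nil => exact mdK.nil
  | cons c L ih =>
    rw [allL_iff] at h
    exact .cons (RK_el (h c List.mem_cons_self)) (ih (allL_iff.2 fun x hx => h x (List.mem_cons_of_mem _ hx)))

theorem RK.mem_V {c : ℕ} {k : K} (h : RK c k) : k ∈ V ↔ hi c = one24 :=
  mem_V_iff.trans (canCM.eq_iff h.1 grpCM.one)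

theorem RK_V {v : K} (hv : v ∈ V) : RK (pk one24 (sy v)) v := .pk (by rw [π_V hv]; exact grpCM.one) rfl

/-- The generators. -/
noncomputable def ysK : List K := [Spor.J4L.yK 0, Spor.J4L.yK 1, Spor.J4L.yK 2, Spor.J4L.yK 3]

def csK : List ℕ := [187422143864353080404976614648501452800, 3127447622010867096435353398119212924928,
  410835578308073476331232614605255634944, 4033815529618450547112136865621959905054]

theorem RK_yK {x : ℕ} (hx : x < 4) : RK (getL csK kone x) (Spor.J4L.yK x) := by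
  have h : co (Spor.J4L.yK x) = crd (Spor.runA Spor.J4L.actK [x] 0) := by rw [← co_ev, Spor.ev_one]
  have h2 : RK (pk (getL pcs one24 x) (app Lc (crd (Spor.runA Spor.J4L.actK [x] 0)))) (Spor.J4L.yK x) :=
    .pk (π_yK hx) (by rw [sy, h])
  exact congr_beq h2 (by interval_cases x <;> decide +kernel)

theorem alY : Al RK kone csK ysK :=
  .cons (RK_yK (x := 0) (by decide)) (.cons (RK_yK (x := 1) (by decide)) (.cons (RK_yK (x := 2) (by decide))
    (.cons (RK_yK (x := 3) (by decide)) mdK.nil)))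

theorem ev_ysK {w : List ℕ} (hw : ∀ x ∈ w, x < 4) : ev (getL ysK 1) w = ev Spor.J4L.yK w :=
  Spor.ev_congr fun x hx => by have := hw x hx; interval_cases x <;> rfl

theorem RK_ev {w : List ℕ} {c : ℕ} (h : band (allL w fun x => Nat.blt x 4) (Nat.beq (wdc kmul kone csK w kone) c) = true) :
    RK c (ev Spor.J4L.yK w) := by
  rw [band_eq, Bool.and_eq_true, allL_iff] at h
  rw [← ev_ysK fun x hx => nblt.1 (h.1 x hx)]
  exact mdK.new alY (.w w) h.2

def cv0 : ℕ := 4033815529618450547112136865621959903257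
def ct0 : ℕ := 4033815529618450547112136865621959901313

theorem RK_v0 : RK cv0 v0 := RK_ev (by decide +kernel)
theorem RK_tv0 : RK ct0 tv0 := RK_ev (by decide +kernel)

end Cfsg.Agent.J4F
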