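import Cfsg.Agent.J4F.JM

/-! General tools for the local analysis of the fourth Janko group (helper16). -/

set_option autoImplicit false
set_option maxRecDepth 100000
set_option exponentiation.threshold 100000

namespace Cfsg.Agent.J4F
open Cfsg.Agent.Comp Cfsg.Agent.Golay Cfsg.Agent.J4T Cfsg.Agent.J4T.C
open Cfsg.Agent.Spor (ev getL genL genW)

section
variable {G : Type*} [Group G]

/-- A `p`-subgroup is conjugate into a subgroup of index prime to `p`. -/
theorem pgrp_conj [Finite G] {p : ℕ} (hp : p.Prime) {H P : Subgroup G} (hH : ¬ p ∣ H.index) (hP : IsPGroup p P) :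
    ∃ g : G, ∀ x ∈ P, g * x * g⁻¹ ∈ H := by
  haveI := Fact.mk hp
  obtain ⟨q, hq⟩ := hP.nonempty_fixed_point_of_prime_not_dvd_card (G ⧸ H) hH
  obtain ⟨g, rfl⟩ := QuotientGroup.mk_surjective q
  refine ⟨g⁻¹, fun x hx => ?_⟩
  have h : ((x⁻¹ * g : G) : G ⧸ H) = g := hq ⟨x⁻¹, P.inv_mem hx⟩
  have := QuotientGroup.eq.1 h
  simpa [mul_assoc] using this

/-- Coprime action: a `p`-group of pairs with equal images is conjugate to the diagonal. -/
theorem conj_of_pairs [Finite G] {H : Type*} [Group H] (f : G →* H) {p : ℕ} (hp : p.Prime)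
    (hk : ¬ p ∣ Nat.card f.ker) {D : Subgroup (G × G)} (hD : IsPGroup p D) (e : ∀ x ∈ D, f x.1 = f x.2) :
    ∃ u, f u = 1 ∧ ∀ x ∈ D, u * x.2 * u⁻¹ = x.1 := by
  haveI := Fact.mk hp
  letI : MulAction D f.ker :=
    { smul := fun x u => ⟨x.1.1 * u * x.1.2⁻¹, by
        rw [MonoidHom.mem_ker, map_mul, map_mul, map_inv, e _ x.2, show f u = 1 from u.2]; simp⟩
      one_smul := fun u => Subtype.ext (show (1 : G) * u * 1⁻¹ = u by simp)
      mul_smul := fun x y u => Subtype.ext (show x.1.1 * y.1.1 * u * (x.1.2 * y.1.2)⁻¹ =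
        x.1.1 * (y.1.1 * u * y.1.2⁻¹) * x.1.2⁻¹ by group) }
  obtain ⟨u, hu⟩ := hD.nonempty_fixed_point_of_prime_not_dvd_card f.ker hk
  refine ⟨u, u.2, fun x hx => ?_⟩
  have h : x.1 * u * x.2⁻¹ = u := congrArg Subtype.val (hu ⟨x, hx⟩)
  calc (u : G) * x.2 * (u : G)⁻¹ = (x.1 * u * x.2⁻¹) * x.2 * (u : G)⁻¹ := by rw [h]
    _ = x.1 := by group

theorem conj_of_ker [Finite G] {H : Type*} [Group H] (f : G →* H) {p j : ℕ} (hp : p.Prime)
    (hk : ¬ p ∣ Nat.card f.ker) {x y : G} (hx : x ^ p ^ j = 1) (hy : y ^ p ^ j = 1) (e : f x = f y) :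
    ∃ u, f u = 1 ∧ u * y * u⁻¹ = x := by
  obtain ⟨u, h1, h2⟩ := conj_of_pairs f hp hk (D := Subgroup.zpowers (x, y))
    (isPGroup_zpowers (j := j) (Prod.ext hx hy)) (by
      rintro _ ⟨n, rfl⟩
      show f (x ^ n) = f (y ^ n)
      rw [map_zpow, map_zpow, e])
  exact ⟨u, h1, h2 _ (Subgroup.mem_zpowers _)⟩

end

section
variable {G : Type} [Group G] {R : ℕ → G → Prop} {mul : ℕ → ℕ → ℕ} {one : ℕ} (M : Md R mul one)
include M

theorem Md.semi {A B C : ℕ} {a b c : G} (ha : R A a) (hb : R B b) (hc : R C c)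
    (h : Nat.beq (mul C A) (mul B C) = true) : c * a * c⁻¹ = b := by
  rw [M.func (congr_beq (M.mul hc ha) h) (M.mul hb hc), mul_inv_cancel_right]

theorem Md.isConj {A B C : ℕ} {a b c : G} (ha : R A a) (hb : R B b) (hc : R C c)
    (h : Nat.beq (mul C A) (mul B C) = true) : IsConj a b := isConj_iff.2 ⟨c, M.semi ha hb hc h⟩

theorem Md.comm_iff {A B : ℕ} {a b : G} (ha : R A a) (hb : R B b) :
    a * b = b * a ↔ Nat.beq (mul A B) (mul B A) = true := by
  rw [nbeq]; exact M.eq_iff (M.mul ha hb) (M.mul hb ha)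

theorem Md.eqsW {As : List ℕ} {ys : List G} (h : Al R one As ys) (E : List (List ℕ × List ℕ))
    (hc : allL E (fun e => Nat.beq (wdc mul one As e.1 one) (wdc mul one As e.2 one)) = true) :
    Spor.Ct.Eqs (getL ys 1) E := fun e he => M.eq h (.w e.1) (.w e.2) (allL_iff.1 hc e he)

theorem Md.rw {As : List ℕ} {ys : List G} (h : Al R one As ys) (w : List ℕ) :
    R (wdc mul one As w one) (ev (getL ys 1) w) := M.rp h (.w w)

theorem Md.order {A p : ℕ} {a : G} (ha : R A a) (hp : p.Prime)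
    (h : band (Nat.beq (pwc mul one A p) one) (not (Nat.beq A one)) = true) : orderOf a = p := by
  rw [band_eq, Bool.and_eq_true, Bool.not_eq_true', nbeq_false] at h
  haveI := Fact.mk hp
  exact orderOf_eq_prime (M.func (congr_beq (M.pow ha p) h.1) M.one) fun e => h.2 (M.canon ha (e ▸ M.one))

end

theorem index_N0 : (ι.range).index = 173067389 := Spor.J4G.main.1

/-- An element of prime power order is conjugate into `K` for `p ≠ 11, 29, 31, 37, 43`. -/
theorem elt_conj {p j : ℕ} (hp : p.Prime) (h : ¬ p ∣ 173067389) {x : J} (hx : x ^ p ^ j = 1) :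
    ∃ (g : J) (k : K), g * x * g⁻¹ = ι k := by
  obtain ⟨g, hg⟩ := pgrp_conj hp (H := ι.range) (by rwa [index_N0]) (isPGroup_zpowers hx)
  obtain ⟨k, hk⟩ := hg x (Subgroup.mem_zpowers x)
  exact ⟨g, k, hk.symm⟩

theorem elt_conj' {p : ℕ} (hp : p.Prime) (h : ¬ p ∣ 173067389) {x : J} (hx : orderOf x = p) :
    ∃ k : K, orderOf k = p ∧ IsConj (ι k) x := by
  obtain ⟨g, k, e⟩ := elt_conj (j := 1) hp h (x := x) (by rw [pow_one, ← hx, pow_orderOf_eq_one])
  refine ⟨k, ?_, (isConj_iff.2 ⟨g, e⟩).symm⟩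
  rw [← orderOf_injective ι ι_inj, ← e, ← hx]
  exact (MulAut.conj g).orderOf_eq x

theorem coset_code {a : ℕ} {k : K} (h : CM a (π k)) : ∃ m < 4096, okV m = true ∧ RK (pk a m) k :=
  ⟨_, sy_lt k, okV_sy k, .pk h rfl⟩

/-- An element of `K` is conjugate to one with prescribed conjugate image. -/
theorem lift_conj {k : K} {g u : MG} (h : u * g * u⁻¹ = π k) : ∃ k', IsConj k' k ∧ π k' = g := by
  obtain ⟨w, rfl⟩ := π_surj u
  exact ⟨w⁻¹ * k * w, isConj_iff.2 ⟨w, by group⟩, by rw [map_mul, map_mul, map_inv, ← h]; group⟩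

theorem order_π {k : K} {p : ℕ} (hp : p.Prime) (h2 : p ≠ 2) (hk : orderOf k = p) : orderOf (π k) = p := by
  haveI := Fact.mk hp
  refine orderOf_eq_prime (by rw [← map_pow, ← hk, pow_orderOf_eq_one, map_one]) fun e => ?_
  have h1 : k ^ 2 = 1 := by rw [sq]; exact V_sq (mem_V_of e)
  have := orderOf_dvd_of_pow_eq_one h1
  rw [hk] at this
  exact h2 ((Nat.prime_dvd_prime_iff_eq hp Nat.prime_two).1 this)

/-- Elements of odd prime power order with the same image in `M24` are conjugate under `V`. -/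
theorem conj_V {p j : ℕ} (hp : p.Prime) (h2 : p ≠ 2) {x y : K} (hx : x ^ p ^ j = 1) (hy : y ^ p ^ j = 1)
    (e : π x = π y) : ∃ u ∈ V, u * y * u⁻¹ = x := by
  obtain ⟨u, h1, h3⟩ := conj_of_ker π hp (by
    rw [ker_π, cardV]; exact fun h => h2 ((Nat.prime_dvd_prime_iff_eq hp Nat.prime_two).1
      (hp.dvd_of_dvd_pow (show p ∣ 2 ^ 11 from h)))) hx hy e
  exact ⟨u, mem_V_of h1, h3⟩

/-- Elements of odd prime order with conjugate images are conjugate. -/
theorem isConj_of_π {p : ℕ} (hp : p.Prime) (h2 : p ≠ 2) {x y : K} (hx : x ^ p = 1) (hy : y ^ p = 1) {u : MG}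
    (e : u * π y * u⁻¹ = π x) : IsConj y x := by
  obtain ⟨k, h1, h3⟩ := lift_conj e
  obtain ⟨c, rfl⟩ := isConj_iff.1 h1
  have : k ^ p = 1 := by rw [conj_pow] at hx; simpa using hx
  obtain ⟨v, -, hv⟩ := conj_V (j := 1) hp h2 (by rwa [pow_one]) (by rwa [pow_one]) h3
  exact (isConj_iff.2 ⟨v, hv⟩).trans h1

/-- The conjugacy orbit of the code `r` under the codes `L` (which fix the image in `M24`). -/
def orbV (L : List ℕ) (fuel r : ℕ) : List ℕ := orbitL (conjC kmul kinv) lo (fun _ => true) L fuel r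

theorem conj_of_orbV {L : List ℕ} {H : Subgroup K} (hL : CodesIn RK L H) {fuel r c : ℕ} {x k : K} (hr : RK r x)
    (hc : RK c k) (h : memL c (orbV L fuel r) = true) : ∃ g ∈ H, g * x * g⁻¹ = k := by
  obtain ⟨g, hg, e⟩ := orbitL_reach (X := Cj K) (keyedCj grpK canK).isAct hL (x0 := toCj x) hr (memL_iff.1 h)
  exact ⟨g, hg, canK.func e hc⟩

theorem V_cases {v : K} (hv : v ∈ V) : v = 1 ∨ IsConj v0 v ∨ IsConj tv0 v := by
  rcases C.orbs (co_lt v) with h | ⟨k, h⟩ | ⟨k, h⟩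
  · exact .inl (eq_one hv h)
  · exact .inr (.inl (isConj_iff.2 ⟨k, ext_V (V_normal.conj_mem _ v0_V k) hv (by rw [co_conj k v0_V, co_v0, h])⟩))
  · exact .inr (.inr (isConj_iff.2 ⟨k, ext_V (V_normal.conj_mem _ tv0_V k) hv (by rw [co_conj k tv0_V, co_tv0, h])⟩))

theorem RJ_z0 : RJ (wdc mJ oJ AE [16, 19, 20] oJ) z0 := z0_eq ▸ rk _ (by decide +kernel)
theorem RJ_t0 : RJ (wdc mJ oJ AE [16, 23] oJ) t0 := t0_eq ▸ rk _ (by decide +kernel)

end Cfsg.Agent.J4F
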