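import Cfsg.Agent.J4F.Tool

/-! The fourth Janko group has two classes of involutions (helper16). -/

set_option autoImplicit false
set_option maxRecDepth 100000
set_option exponentiation.threshold 100000

namespace Cfsg.Agent.J4F
open Cfsg.Agent.Comp Cfsg.Agent.Golay Cfsg.Agent.J4T Cfsg.Agent.J4T.C
open Cfsg.Agent.Spor (ev getL genL genW)

def invOK (a : ℕ) (L : List ℕ) (r s : ℕ) : Bool :=
  forceL (orbV L 200 (pk a r)) fun A => forceL (orbV L 200 (pk a s)) fun B => allLt 4096 fun m =>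
    bor (not (okV m)) (force (pk a m) fun c => bor (not (Nat.beq (kmul c c) kone)) (bor (memL c A) (memL c B)))

theorem inv_coset {a r s : ℕ} {L : List ℕ} (h : band (band (allL L okK) (band (okK (pk a r)) (okK (pk a s))))
    (invOK a L r s) = true) {k : K} (hk : CM a (π k)) (h2 : k * k = 1) :
    IsConj (el (pk a r)) k ∨ IsConj (el (pk a s)) k := by
  simp only [band_eq, Bool.and_eq_true, invOK, forceL_eq, allLt_iff, bor_eq, Bool.or_eq_true, force_eq,
    Bool.not_eq_true'] at h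
  obtain ⟨⟨h1, h3, h4⟩, h5⟩ := h
  obtain ⟨m, hm, ho, hc⟩ := coset_code hk
  rcases h5 m hm with h | h | h | h
  · rw [ho] at h; cases h
  · exact absurd (canK.canon (grpK.mul hc hc) (h2 ▸ grpK.one)) (nbeq_false.1 h)
  · obtain ⟨g, -, e⟩ := conj_of_orbV (codesK h1) (RK_el h3) hc h
    exact .inl (isConj_iff.2 ⟨g, e⟩)
  · obtain ⟨g, -, e⟩ := conj_of_orbV (codesK h1) (RK_el h4) hc h
    exact .inr (isConj_iff.2 ⟨g, e⟩)

def vs3 : List ℕ := [pk one24 2049, pk one24 2050, pk one24 2052]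

/-- The six classes of involutions of `K`. -/
theorem invK {k : K} (h : orderOf k = 2) : IsConj v0 k ∨ IsConj tv0 k ∨ IsConj (el (pk cA 0)) k ∨
    IsConj (el (pk cA 36)) k ∨ IsConj (el (pk cB 0)) k ∨ IsConj (el (pk cB 24)) k := by
  have h2 : k ^ 2 = 1 := h ▸ pow_orderOf_eq_one k
  by_cases h1 : π k = 1
  · rcases V_cases (mem_V_of h1) with e | e | e
    · rw [e, orderOf_one] at h; cases h
    · exact .inl e
    · exact .inr (.inl e)
  have sq : ∀ {k' : K}, IsConj k' k → k' * k' = 1 := fun e => by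
    obtain ⟨c, rfl⟩ := isConj_iff.1 e
    rw [conj_pow, sq] at h2; simpa using h2
  rcases inv_cases (orderOf_eq_prime (by rw [← map_pow, h2, map_one]) h1) with ⟨u, e⟩ | ⟨u, e⟩
  · obtain ⟨k', e1, e2⟩ := lift_conj e
    rcases inv_coset (a := cA) (r := 0) (s := 36) (L := mapL (pk · 0) gCA ++ vs3) (by decide +kernel)
      (e2 ▸ rep_zA) (sq e1) with h | h
    · exact .inr (.inr (.inl (h.trans e1)))
    · exact .inr (.inr (.inr (.inl (h.trans e1))))
  · obtain ⟨k', e1, e2⟩ := lift_conj e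
    rcases inv_coset (a := cB) (r := 0) (s := 24) (L := mapL (pk · 0) gCB ++ vs3) (by decide +kernel)
      (e2 ▸ rep_zB) (sq e1) with h | h
    · exact .inr (.inr (.inr (.inr (.inl (h.trans e1)))))
    · exact .inr (.inr (.inr (.inr (.inr (h.trans e1)))))

theorem fuseA0 : IsConj z0 (ι (el (pk cA 0))) :=
  mdJ.isConj RJ_z0 (rk [2, 15, 15, 1, 8, 6, 14, 6] (by decide +kernel))
    (mdJ.rw alJ [1, 8, 5, 27, 5, 12, 8, 13, 8, 7, 0, 14, 16, 18, 19, 21, 23, 24, 25, 26]) (by decide +kernel)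

theorem fuseA1 : IsConj t0 (ι (el (pk cA 36))) :=
  mdJ.isConj RJ_t0 (rk [2, 15, 15, 1, 8, 6, 14, 6, 18, 21] (by decide +kernel))
    (mdJ.rw alJ [0, 9, 5, 27, 7, 15, 10, 1, 15, 12, 5, 8, 17, 18, 19, 21, 23, 24, 25, 26]) (by decide +kernel)

theorem fuseB0 : IsConj t0 (ι (el (pk cB 0))) :=
  mdJ.isConj RJ_t0 (rk [2, 10, 14, 14, 4, 4, 15, 5] (by decide +kernel))
    (mdJ.rw alJ [2, 14, 32, 4, 8, 6, 8, 2, 12, 8, 11, 17]) (by decide +kernel)

theorem fuseB1 : IsConj z0 (ι (el (pk cB 24))) :=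
  mdJ.isConj RJ_z0 (rk [2, 10, 14, 14, 4, 4, 15, 5, 19, 20] (by decide +kernel))
    (mdJ.rw alJ [1, 13, 5, 5, 27, 1, 7, 4, 4, 7, 7, 13, 5, 17]) (by decide +kernel)

/-- Every involution of `J4` is conjugate to `z0` or `t0`. -/
theorem two_classes {g : Cfsg.Spor.J4} (h : orderOf g = 2) : IsConj z0 g ∨ IsConj t0 g := by
  obtain ⟨k, hk, e⟩ := elt_conj' Nat.prime_two (by decide) h
  rcases invK hk with h | h | h | h | h | h
  · exact .inl ((ι.map_isConj h).trans e)
  · exact .inr ((ι.map_isConj h).trans e)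
  · exact .inl (fuseA0.trans ((ι.map_isConj h).trans e))
  · exact .inr (fuseA1.trans ((ι.map_isConj h).trans e))
  · exact .inr (fuseB0.trans ((ι.map_isConj h).trans e))
  · exact .inl (fuseB1.trans ((ι.map_isConj h).trans e))

theorem ord_t0 : orderOf t0 = 2 := mdJ.order RJ_t0 Nat.prime_two (by decide +kernel)

end Cfsg.Agent.J4F
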