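import Cfsg.Agent.J4F.EA2
import Cfsg.Agent.J4F.Two

/-! Transport of subgroup data along group isomorphisms; the `2^11` subgroups of `J₄` (helper16). -/

set_option autoImplicit false

namespace Cfsg.Agent.J4F
open Subgroup

section
variable {H G : Type*} [Group H] [Group G] (f : H ≃* G)

/-- the image of a subgroup under an isomorphism -/
def mp (A : Subgroup H) : Subgroup G := A.map f.toMonoidHom

variable {f}
theorem mem_mp {A : Subgroup H} {x : G} : x ∈ mp f A ↔ f.symm x ∈ A := by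
  constructor
  · rintro ⟨a, ha, rfl⟩; simpa using ha
  · intro h; exact ⟨_, h, by simp⟩
theorem mem_mp' {A : Subgroup H} {x : H} : f x ∈ mp f A ↔ x ∈ A := by simp [mem_mp]
theorem mp_surj (f : H ≃* G) (B : Subgroup G) : ∃ A, mp f A = B :=
  ⟨mp f.symm B, by ext x; simp [mem_mp]⟩
theorem mp_le {A B : Subgroup H} : mp f A ≤ mp f B ↔ A ≤ B := map_le_map_iff_of_injective f.injective
theorem mp_inj {A B : Subgroup H} : mp f A = mp f B ↔ A = B := by simp only [le_antisymm_iff, mp_le]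
theorem mp_inf (A B : Subgroup H) : mp f A ⊓ mp f B = mp f (A ⊓ B) := by ext x; simp [mem_mp]
theorem mp_sup (A B : Subgroup H) : mp f A ⊔ mp f B = mp f (A ⊔ B) := (Subgroup.map_sup _ _ _).symm
theorem mp_bot : mp f ⊥ = ⊥ := Subgroup.map_bot _
theorem mp_eq_bot {A : Subgroup H} : mp f A = ⊥ ↔ A = ⊥ := by rw [← mp_bot (f := f), mp_inj]
theorem mp_comm (A B : Subgroup H) : ⁅mp f A, mp f B⁆ = mp f ⁅A, B⁆ := (map_commutator _ _ _).symm
theorem mp_zpowers (x : H) : zpowers (f x) = mp f (zpowers x) := (MonoidHom.map_zpowers f.toMonoidHom x).symm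
theorem mp_cent (A : Subgroup H) : centralizer (mp f A : Set G) = mp f (centralizer (A : Set H)) := by
  ext x
  rw [mem_mp, mem_centralizer_iff, mem_centralizer_iff]
  constructor
  · intro h a ha
    apply f.injective
    simpa using h (f a) (mem_mp'.2 ha)
  · intro h a ha
    apply f.symm.injective
    simpa using h _ (mem_mp.1 ha)
theorem mp_cent1 (a : H) : centralizer ({f a} : Set G) = mp f (centralizer ({a} : Set H)) := by
  ext x
  rw [mem_mp, mem_centralizer_singleton_iff, mem_centralizer_singleton_iff, ← f.symm.injective.eq_iff]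
  simp
theorem mp_norm (A : Subgroup H) : normalizer (mp f A : Set G) = mp f (normalizer (A : Set H)) :=
  (map_equiv_normalizer_eq A f).symm
/-- the isomorphism onto the image -/
def mpE (f : H ≃* G) (A : Subgroup H) : A ≃* mp f A := f.subgroupMap A
theorem mpE_coe (A : Subgroup H) (a : A) : (mpE f A a : G) = f a := rfl
theorem mp_card (A : Subgroup H) : Nat.card (mp f A) = Nat.card A := (Nat.card_congr (mpE f A).toEquiv).symm
theorem mp_index (A : Subgroup H) : (mp f A).index = A.index := index_map_equiv A f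
theorem mp_ea {p : ℕ} {A : Subgroup H} : IsElementaryAbelian p (mp f A) ↔ IsElementaryAbelian p A := by
  constructor
  · rintro ⟨h, h'⟩
    refine ⟨⟨⟨fun a b => (mpE f A).injective ?_⟩⟩, fun a ha => f.injective ?_⟩
    · rw [map_mul, map_mul, h.1.1]
    · rw [map_pow, h' _ (mem_mp'.2 ha), map_one]
  · rintro ⟨h, h'⟩
    refine ⟨⟨⟨fun a b => (mpE f A).symm.injective ?_⟩⟩, fun a ha => f.symm.injective ?_⟩
    · rw [map_mul, map_mul, h.1.1]
    · rw [map_pow, h' _ (mem_mp.1 ha), map_one]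
theorem mp_orb (N : Subgroup H) (a : H) :
    {v : G | ∃ n ∈ mp f N, n * f a * n⁻¹ = v}.ncard = {v : H | ∃ n ∈ N, n * a * n⁻¹ = v}.ncard := by
  rw [← Set.ncard_image_of_injective _ f.injective]
  congr 1
  ext v
  constructor
  · rintro ⟨n, hn, rfl⟩
    exact ⟨_, ⟨_, mem_mp.1 hn, rfl⟩, by simp⟩
  · rintro ⟨_, ⟨n, hn, rfl⟩, rfl⟩
    exact ⟨f n, mem_mp'.2 hn, by simp⟩
theorem mp_trans {L : Type*} [Group L] (g : G ≃* L) (A : Subgroup H) : mp g (mp f A) = mp (f.trans g) A := by
  ext x; simp [mem_mp]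
theorem isConj_map {a b : H} : IsConj (f a) (f b) ↔ IsConj a b :=
  ⟨fun h => by simpa using f.symm.toMonoidHom.map_isConj h, fun h => f.toMonoidHom.map_isConj h⟩
theorem mp_sub (L N : Subgroup H) : mp (mpE f N) (L.subgroupOf N) = (mp f L).subgroupOf (mp f N) := by
  ext x
  obtain ⟨y, rfl⟩ := (mpE f N).surjective x
  rw [mem_mp', mem_subgroupOf, mem_subgroupOf, mpE_coe, mem_mp']
theorem mp_center : mp f (center H) = center G := by
  rw [← centralizer_univ, ← centralizer_univ, ← coe_top, ← mp_cent, ← coe_top]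
  congr 2
  exact map_top_of_surjective _ f.surjective
theorem quot_mp {A : Subgroup H} {B : Subgroup G} [A.Normal] [B.Normal] (h : mp f A = B) :
    Nonempty (H ⧸ A ≃* G ⧸ B) := ⟨QuotientGroup.congr A B f h⟩
theorem mp_normal {A : Subgroup H} [h : A.Normal] : (mp f A).Normal := h.map _ f.surjective
theorem mp_compl [Finite H] {A B : Subgroup H} (h : (mp f A).IsComplement' (mp f B)) : A.IsComplement' B := by
  have : Finite G := Finite.of_equiv _ f.toEquiv
  rw [isComplement'_iff_card_mul_and_disjoint, disjoint_iff] at *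
  rwa [mp_card, mp_card, mp_inf, mp_eq_bot, ← Nat.card_congr f.toEquiv] at h
theorem special_tr {p : ℕ} (f : H ≃* G) (h : IsSpecial p H) : IsSpecial p G := by
  obtain ⟨h1, h2, h3⟩ := h
  refine ⟨h1.of_equiv f, ?_, ?_⟩
  · rw [← mp_center (f := f), ← h2]
    apply le_antisymm
    · intro x hx
      exact mem_mp.2 (frattini_le_comap_frattini_of_surjective (φ := f.symm.toMonoidHom) f.symm.surjective hx)
    · rintro _ ⟨x, hx, rfl⟩
      exact frattini_le_comap_frattini_of_surjective (φ := f.toMonoidHom) f.surjective hx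
  · rw [← mp_center (f := f), ← h3, commutator_def, commutator_def, ← mp_comm]
    congr 1 <;> exact (map_top_of_surjective _ f.surjective).symm
theorem extraspecial_tr {p : ℕ} (f : H ≃* G) (h : IsExtraspecial p H) : IsExtraspecial p G :=
  ⟨special_tr f h.1, by rw [← mp_center (f := f), mp_card, h.2]⟩
theorem sylow_mp {p : ℕ} (f : H ≃* G) (P : Sylow p H) : ∃ Q : Sylow p G, (Q : Subgroup G) = mp f P := by
  refine ⟨⟨mp f P, P.2.map _, fun {Q} hQ h => ?_⟩, rfl⟩
  obtain ⟨Q, rfl⟩ := mp_surj f Q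
  rw [P.3 (hQ.of_equiv (mpE f Q).symm) (mp_le.1 h)]
theorem sylow_mp' {p : ℕ} (f : H ≃* G) (Q : Sylow p G) : ∃ P : Sylow p H, (Q : Subgroup G) = mp f P := by
  obtain ⟨P, h⟩ := sylow_mp f.symm Q
  exact ⟨P, by rw [h]; ext x; simp [mem_mp]⟩
end

open Cfsg.Agent.J4T Cfsg.Agent.J4T.C

theorem ea_sq {G : Type*} [Group G] {E : Subgroup G} (h : IsElementaryAbelian 2 E) : ∀ x ∈ E, x * x = 1 :=
  fun x hx => by rw [← sq]; exact h.2 x hx

theorem ea_of_sq {G : Type*} [Group G] {E : Subgroup G} (h : ∀ x ∈ E, x * x = 1) : IsElementaryAbelian 2 E :=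
  ⟨⟨⟨fun a b => Subtype.ext (comm_of_sq h a.2 b.2)⟩⟩, fun x hx => by rw [sq]; exact h x hx⟩

theorem two_in_K {E : Subgroup J} (h : IsPGroup 2 E) : ∃ (g : J) (E' : Subgroup K), E = mp (MulAut.conj g) (E'.map ι) := by
  obtain ⟨g, hg⟩ := pgrp_conj (H := ι.range) Nat.prime_two (by rw [index_N0]; decide) h
  refine ⟨g⁻¹, (mp (MulAut.conj g) E).comap ι, ?_⟩
  rw [map_comap_eq_self]
  · ext x; simp [mem_mp, mul_assoc]
  · rintro _ ⟨x, hx, rfl⟩; exact hg x hx

theorem card_mapι (E : Subgroup K) : Nat.card (E.map ι) = Nat.card E := card_map_of_injective ι_inj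

theorem ea11 {E : Subgroup J} (h : IsElementaryAbelian 2 E) (hc : Nat.card E = 2 ^ 11) :
    ∃ g : J, E = mp (MulAut.conj g) V0 := by
  obtain ⟨g, E, rfl⟩ := two_in_K (pgrp_of_sq (ea_sq h))
  rw [mp_ea] at h
  rw [mp_card, card_mapι] at hc
  refine ⟨g, ?_⟩
  rw [ea_eq_V (E := E) (fun x hx => ι_inj (by rw [map_mul, map_one]; exact ea_sq h _ ⟨x, hx, rfl⟩)) hc.ge]
  rfl

end Cfsg.Agent.J4F
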